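import Mathlib

/-! Consecutive divisors of `2 ^ a * 3 * 5 * q ^ b`, and three divisors of `2 ^ a * 3 * 13 ^ 5`
with sum `63`. -/

set_option autoImplicit false

namespace CL.K4

theorem two_pow_dvd {q s : ℤ} (hq : Odd q) (hs : Odd s) {k i : ℕ} (hk : Odd k)
    (h : 2 ^ i ∣ q ^ k - s ^ k) : 2 ^ i ∣ q - s := by
  rw [← (Commute.all q s).mul_geom_sum₂] at h
  refine (IsCoprime.pow_left (Int.isCoprime_two_left.2 ?_)).dvd_of_dvd_mul_right h
  obtain ⟨x, rfl⟩ := hq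
  obtain ⟨y, rfl⟩ := hs
  have h2 : (2 : ZMod 2) = 0 := rfl
  rw [← Int.not_even_iff_odd, ← ZMod.intCast_eq_zero_iff_even]
  simp [h2, (ZMod.natCast_eq_one_iff_odd).2 hk]

theorem pow_ne {q k i j : ℕ} (hq : Odd q) (h7 : 7 ≤ q) (hk : 2 ≤ k) (hj : j ≤ 1) (h3 : ¬ 3 ∣ q)
    (h : q ^ k + 1 = 2 ^ i * 5 ^ j ∨ q ^ k = 2 ^ i * 5 ^ j + 1) : False := by
  have h5 : 5 ^ j = 1 ∨ 5 ^ j = 5 := by interval_cases j <;> simp
  rcases k.even_or_odd with ⟨m, rfl⟩ | ho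
  · have h1 : Odd (q ^ m) := hq.pow
    have h2 : ¬ 3 ∣ q ^ m := fun k => h3 (Nat.prime_three.dvd_of_dvd_pow k)
    have h4 : 7 ≤ q ^ m := h7.trans (Nat.le_self_pow (by omega) q)
    rw [pow_add] at h
    generalize q ^ m = t at *
    rcases h with h | h
    · obtain ⟨s, rfl⟩ := h1
      rcases i with _ | _ | i
      · rcases h5 with k | k <;> rw [k] at h <;> nlinarith
      · rw [zero_add, pow_one] at h
        rcases h5 with k | k <;> rw [k] at h <;> nlinarith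
      · have : 4 * (s * s + s) + 2 = 4 * (2 ^ i * 5 ^ j) := by linear_combination h
        omega
    · have h6 : t * t % 3 = 1 := by
        have : t % 3 = 1 ∨ t % 3 = 2 := by omega
        rcases this with k | k <;> simp [Nat.mul_mod, k]
      have h8 : 3 ∣ 2 ^ i * 5 ^ j := by omega
      exact absurd h8 ((Nat.Prime.coprime_iff_not_dvd Nat.prime_three).1
        (Nat.Coprime.mul_right (Nat.Coprime.pow_right _ (by norm_num))
          (Nat.Coprime.pow_right _ (by norm_num))))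
  · have hq' : Odd (q : ℤ) := by exact_mod_cast hq
    have h1 : 2 ^ i ≤ q + 1 := by
      rcases h with h | h
      · have := two_pow_dvd (i := i) hq' (s := -1) (by decide) ho ⟨5 ^ j, by
          rw [ho.neg_one_pow, sub_neg_eq_add]; exact_mod_cast h⟩
        exact_mod_cast Int.le_of_dvd (by omega) (sub_neg_eq_add (q : ℤ) 1 ▸ this)
      · have := two_pow_dvd (i := i) hq' (s := 1) (by decide) ho ⟨5 ^ j, by
          rw [one_pow, sub_eq_iff_eq_add]; exact_mod_cast h⟩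
        have h2 := Int.le_of_dvd (by omega) this
        have : (2 : ℤ) ^ i ≤ q + 1 := by omega
        exact_mod_cast this
    have h2 : q ^ 2 ≤ q ^ k := Nat.pow_le_pow_right (by omega) hk
    rcases h5 with e | e <;> rw [e] at h <;> rcases h with h | h <;> nlinarith

theorem auri {q k i : ℕ} (hq : q.Prime) (h7 : 7 ≤ q) (hk : 1 ≤ k)
    (h : 2 ^ i + 1 = 5 * q ^ k) : 2 ^ i = 64 ∧ q = 13 := by
  obtain ⟨j, rfl⟩ : ∃ j, i = 4 * j + 2 := by
    have h1 : (2 ^ 4) ^ (i / 4) % 5 = 1 := by rw [Nat.pow_mod]; simp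
    have h2 : 2 ^ i = (2 ^ 4) ^ (i / 4) * 2 ^ (i % 4) := by
      rw [← pow_mul, ← pow_add, Nat.div_add_mod]
    have h3 : i % 4 < 4 := Nat.mod_lt _ (by norm_num)
    refine ⟨i / 4, ?_⟩
    generalize (2 ^ 4) ^ (i / 4) = t at *
    interval_cases h4 : i % 4 <;> omega
  obtain ⟨t, ht⟩ : ∃ t, 2 ^ j = t + 1 := ⟨2 ^ j - 1, by have := j.one_le_two_pow; omega⟩
  have h0 : 2 ^ (4 * j + 2) = 4 * (t + 1) ^ 4 := by rw [← ht]; ring
  have h1 : (2 * t ^ 2 + 2 * t + 1) * (2 * t ^ 2 + 6 * t + 5) = 5 * q ^ k := by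
    rw [← h, h0]; ring
  have h2 : 7 ≤ q ^ k := h7.trans (Nat.le_self_pow (by omega) q)
  have key : ∀ u, u ∣ 5 * q ^ k → ¬ q ∣ u → u ≤ 5 := fun u hu hn =>
    Nat.le_of_dvd (by norm_num) ((((Nat.Prime.coprime_iff_not_dvd hq).2 hn).symm.pow_right
      k).dvd_of_dvd_mul_right hu)
  have h3 : t ≤ 1 := by
    by_cases c1 : q ∣ 2 * t ^ 2 + 2 * t + 1
    · have := key _ (Dvd.intro_left _ h1) fun c2 => by
        have c3 : q ∣ 2 ^ (j + 2) := by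
          rw [pow_add, ht]
          exact (Nat.dvd_add_right c1).1 (by convert c2 using 1; ring)
        have := Nat.le_of_dvd two_pos (hq.dvd_of_dvd_pow c3)
        omega
      nlinarith
    · have := key _ (Dvd.intro _ h1) c1
      nlinarith
  rw [h0]
  interval_cases t
  · omega
  · have h4 : q ^ k = 13 := by omega
    have := Nat.le_self_pow (by omega : k ≠ 0) q
    have h5 : q ∣ 13 := h4 ▸ dvd_pow_self q (by omega)
    exact ⟨rfl, (Nat.prime_dvd_prime_iff_eq hq (by norm_num)).1 h5⟩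

theorem shape {a b q d : ℕ} (hq : q.Prime) (h : d ∣ 2 ^ a * 3 * 5 * q ^ b) (h3 : ¬ 3 ∣ d) :
    ∃ i j k, j ≤ 1 ∧ d = 2 ^ i * 5 ^ j * q ^ k := by
  have h1 : d ∣ 2 ^ a * 5 ^ 1 * q ^ b :=
    ((Nat.Prime.coprime_iff_not_dvd Nat.prime_three).2 h3).symm.dvd_of_dvd_mul_left
      (by convert h using 1; ring)
  obtain ⟨x, y, hx, hy, rfl⟩ := Nat.dvd_mul.1 h1
  obtain ⟨u, v, hu, hv, rfl⟩ := Nat.dvd_mul.1 hx
  obtain ⟨i, -, rfl⟩ := (Nat.dvd_prime_pow Nat.prime_two).1 hu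
  obtain ⟨j, hj, rfl⟩ := (Nat.dvd_prime_pow Nat.prime_five).1 hv
  obtain ⟨k, -, rfl⟩ := (Nat.dvd_prime_pow hq).1 hy
  exact ⟨i, j, k, hj, rfl⟩

theorem zero_or {r i j x y : ℕ} (hr : 2 ≤ r) (hx : r ^ i ∣ x) (hy : r ^ j ∣ y)
    (h : x + 1 = y ∨ x = y + 1) : i = 0 ∨ j = 0 := by
  by_contra k
  have h1 := (dvd_pow_self r (by omega : i ≠ 0)).trans hx
  have h2 := (dvd_pow_self r (by omega : j ≠ 0)).trans hy
  rcases h with rfl | rfl
  · have := Nat.le_of_dvd one_pos ((Nat.dvd_add_right h1).1 h2); omega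
  · have := Nat.le_of_dvd one_pos ((Nat.dvd_add_right h2).1 h1); omega

theorem deg_aux {q i j k j' k' O E : ℕ} (hq : q.Prime) (h7 : 7 ≤ q) (hj : j ≤ 1) (hj' : j' ≤ 1)
    (hE : E = 2 ^ i * 5 ^ j * q ^ k) (hO : O = 5 ^ j' * q ^ k')
    (h : (O + 1 = E ∧ O % 3 = 1) ∨ O = E + 1) :
    O = 1 ∨ O = 5 ∨ O = q ∨ (E = 64 ∧ q = 13) := by
  have h' : O + 1 = E ∨ O = E + 1 := h.imp_left And.left
  have h3 : ¬ 3 ∣ q := fun k => by
    have := (Nat.prime_dvd_prime_iff_eq Nat.prime_three hq).1 k; omega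
  rcases Nat.eq_zero_or_pos k' with rfl | hk'
  · interval_cases j' <;> simp [hO]
  obtain rfl : k = 0 := by
    have := zero_or (i := k') (j := k) hq.two_le (hO ▸ Dvd.intro_left _ rfl)
      (hE ▸ Dvd.intro_left _ rfl) h'
    omega
  rw [pow_zero, mul_one] at hE
  interval_cases j'
  · rw [pow_zero, one_mul] at hO
    rcases Nat.lt_or_ge k' 2 with c | c
    · obtain rfl : k' = 1 := by omega
      simp [hO]
    · exact (pow_ne (hq.odd_of_ne_two (by omega)) h7 c hj h3 (hO ▸ hE ▸ h')).elim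
  · obtain rfl : j = 0 := by
      have := zero_or (r := 5) (i := 1) (j := j) (by norm_num) (hO ▸ Dvd.intro _ rfl)
        (hE ▸ Dvd.intro_left _ rfl) h'
      omega
    rw [pow_zero, mul_one] at hE
    rw [pow_one] at hO
    rcases h with ⟨h, h4⟩ | h
    · exfalso
      have h1 : (2 ^ 4) ^ (i / 4) % 15 = 1 := by rw [Nat.pow_mod]; simp
      have h2 : 2 ^ i = (2 ^ 4) ^ (i / 4) * 2 ^ (i % 4) := by
        rw [← pow_mul, ← pow_add, Nat.div_add_mod]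
      have h3 : i % 4 < 4 := Nat.mod_lt _ (by norm_num)
      generalize (2 ^ 4) ^ (i / 4) = t at *
      interval_cases i % 4 <;> omega
    · exact Or.inr (Or.inr (Or.inr (hE ▸ auri hq h7 hk' (by omega))))

theorem deg_cases {a b q y : ℕ} (hq : q.Prime) (h7 : 7 ≤ q) (hy : y % 3 = 1) (h2 : 2 ≤ y)
    (h0 : y ∣ 2 ^ a * 3 * 5 * q ^ b) (h1 : y + 1 ∣ 2 ^ a * 3 * 5 * q ^ b) :
    y = 4 ∨ (y = 64 ∧ q = 13) ∨ y = q ∨ y + 1 = q := by
  obtain ⟨i, j, k, hj, e⟩ := shape hq h0 (by omega)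
  obtain ⟨i', j', k', hj', e'⟩ := shape hq h1 (by omega)
  rcases zero_or (i := i) (j := i') le_rfl (e ▸ (Dvd.intro _ rfl).mul_right _)
    (e' ▸ (Dvd.intro _ rfl).mul_right _) (Or.inl rfl) with rfl | rfl
  · have := deg_aux hq h7 hj' hj e' (by simpa using e) (Or.inl ⟨rfl, hy⟩)
    omega
  · have := deg_aux hq h7 hj hj' e (by simpa using e') (Or.inr rfl)
    omega

/-- The three solutions. -/
def Sol (A B C : ℤ) : Prop :=
  (A = 6 ∧ B = 96 ∧ C = -39) ∨ (A = -24 ∧ B = 256 ∧ C = -169) ∨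
    (A = -384 ∧ B = -6144 ∧ C = 6591)

instance (A B C : ℤ) : Decidable (Sol A B C) := by unfold Sol; infer_instance

theorem shape13 {a : ℕ} {A : ℤ} (h : A ∣ 2 ^ a * 3 * 13 ^ 5) :
    ∃ i : ℕ, ∃ s ∈ ([1, -1] : List ℤ), ∃ j ∈ List.range 2, ∃ k ∈ List.range 6,
      A = 2 ^ i * (s * 3 ^ j * 13 ^ k) := by
  have h1 : A.natAbs ∣ 2 ^ a * 3 ^ 1 * 13 ^ 5 := by
    rw [← Int.natCast_dvd_natCast, Int.natAbs_dvd]; exact_mod_cast h
  obtain ⟨x, y, hx, hy, e⟩ := Nat.dvd_mul.1 h1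
  obtain ⟨u, v, hu, hv, rfl⟩ := Nat.dvd_mul.1 hx
  obtain ⟨i, -, rfl⟩ := (Nat.dvd_prime_pow Nat.prime_two).1 hu
  obtain ⟨j, hj, rfl⟩ := (Nat.dvd_prime_pow Nat.prime_three).1 hv
  obtain ⟨k, hk, rfl⟩ := (Nat.dvd_prime_pow (by norm_num : Nat.Prime 13)).1 hy
  rcases Int.natAbs_eq A with c | c
  · exact ⟨i, 1, by simp, j, List.mem_range.2 (by omega), k, List.mem_range.2 (by omega), by
      rw [c, ← e]; push_cast; ring⟩
  · exact ⟨i, -1, by simp, j, List.mem_range.2 (by omega), k, List.mem_range.2 (by omega), by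
      rw [c, ← e]; push_cast; ring⟩

theorem chk1 : ∀ s ∈ ([1, -1] : List ℤ), ∀ j ∈ List.range 2, ∀ k ∈ List.range 6,
    ¬ (256 : ℤ) ∣ 63 - s * 3 ^ j * 13 ^ k ∧ (s * 3 ^ j * 13 ^ k).natAbs < 2 ^ 21 ∧
      s * 3 ^ j * 13 ^ k ∣ 3 * 13 ^ 5 := by decide +kernel

theorem chk2 : ∀ s ∈ ([1, -1] : List ℤ), ∀ j ∈ List.range 2, ∀ k ∈ List.range 6,
    ∀ i ∈ List.range 8, ∀ s' ∈ ([1, -1] : List ℤ), ∀ j' ∈ List.range 2, ∀ k' ∈ List.range 6,
      let C := s * 3 ^ j * 13 ^ k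
      let A := 2 ^ i * (s' * 3 ^ j' * 13 ^ k')
      C ≠ 1 → C % 5 = 1 → A % 5 = 1 → 63 - C - A ∣ 2 ^ 30 * (3 * 13 ^ 5) →
        Sol A (63 - C - A) C ∨ Sol (63 - C - A) A C := by decide +kernel

theorem bnd {i : ℕ} {B C r : ℤ} (h8 : i < 8) (c2 : C.natAbs < 2 ^ 21) (c3 : r.natAbs < 2 ^ 21)
    (e : B = 63 - C - 2 ^ i * r) (d : 2 ^ 31 ∣ B) (m : B % 5 = 1) : False := by
  have h := Int.natAbs_le_of_dvd_ne_zero d (by rintro rfl; simp at m)
  clear d m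
  interval_cases i <;> omega

theorem enum {a : ℕ} {A B C : ℤ} (hA : A ∣ 2 ^ a * 3 * 13 ^ 5) (hB : B ∣ 2 ^ a * 3 * 13 ^ 5)
    (hC : C ∣ 2 ^ a * 3 * 13 ^ 5) (mA : A % 5 = 1) (mB : B % 5 = 1) (mC : C % 5 = 1)
    (h1 : C ≠ 1) (ho : C % 2 = 1) (hs : A + B + C = 63) : Sol A B C ∨ Sol B A C := by
  obtain ⟨i, s, hs1, j, hj, k, hk, rfl⟩ := shape13 hA
  obtain ⟨i', s', hs', j', hj', k', hk', rfl⟩ := shape13 hB
  wlog hi : i ≤ i' generalizing i i' s s' j j' k k'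
  · exact (this i' s' hs' j' hj' k' hk' hB mB i s hs1 j hj k hk hA mA (by omega) (by omega)).symm
  obtain ⟨l, t, ht, m, hm, n, hn, rfl⟩ := shape13 hC
  obtain rfl : l = 0 := by
    rcases l with _ | l
    · rfl
    · rw [pow_succ, mul_right_comm] at ho; omega
  rw [pow_zero, one_mul] at *
  obtain ⟨c1, c2, -⟩ := chk1 t ht m hm n hn
  obtain ⟨-, c3, -⟩ := chk1 s hs1 j hj k hk
  obtain ⟨-, -, c4⟩ := chk1 s' hs' j' hj' k' hk'
  have h8 : i < 8 := by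
    by_contra c
    refine c1 ?_
    have d1 : (2 : ℤ) ^ 8 ∣ 2 ^ i := pow_dvd_pow 2 (by omega)
    have d2 : (2 : ℤ) ^ 8 ∣ 2 ^ i' := pow_dvd_pow 2 (by omega)
    have := (d1.mul_right (s * 3 ^ j * 13 ^ k)).add (d2.mul_right (s' * 3 ^ j' * 13 ^ k'))
    rwa [show _ = 63 - t * 3 ^ m * 13 ^ n from eq_sub_of_add_eq hs] at this
  have e : 2 ^ i' * (s' * 3 ^ j' * 13 ^ k') =
      63 - t * 3 ^ m * 13 ^ n - 2 ^ i * (s * 3 ^ j * 13 ^ k) := by linear_combination hs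
  have h30 : i' ≤ 30 := by
    by_contra c
    have d1 : (2 : ℤ) ^ 31 ∣ 2 ^ i' := pow_dvd_pow 2 (by omega)
    exact bnd h8 c2 c3 e (d1.mul_right _) mB
  have := chk2 t ht m hm n hn i (List.mem_range.2 h8) s hs1 j hj k hk h1 mC mA
    (e ▸ mul_dvd_mul (pow_dvd_pow 2 h30) c4)
  rwa [← e] at this

end CL.K4
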