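import Cfsg.Agent.INV.K4.T3
import Cfsg.Agent.INV.K4.Dg

/-! A simple group of order `2 ^ a * 3 * 5 * 13 ^ b` does not have degrees `1, 64, 65` in the
principal `3`-block. -/

set_option autoImplicit false
open Cfsg Subgroup CL.Char CL.D1
open CL.Blk hiding irrOne irrOne_apply

namespace CL.K4

variable {G : Type*} [Group G] [Finite G] {e : ℕ} {D : Data G 5 e} {ψ A B C : IrrCharacter G}

/-- The principal `5`-block without exceptional characters. -/
structure Q5 (D : Data G 5 e) (ψ A B C : IrrCharacter G) : Prop where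
  sum : ∀ F : IrrCharacter G → ℂ, ∑ χ, (co D χ : ℂ) * F χ =
    F (irrOne G) - F ψ + co D A * F A + co D B * F B + co D C * F C
  mem : ∀ ζ, (ζ ∈ D.X ∨ ζ ∈ D.Y) ↔ (ζ = ψ ∨ ζ = A ∨ ζ = B ∨ ζ = C)
  sgn : ∀ ζ, ζ ∈ D.X ∨ ζ ∈ D.Y → (co D ζ = 1 ∨ co D ζ = -1) ∧
    (charDegree ζ.1 : ℤ) ≡ co D ζ [ZMOD 5]

theorem Q5.swap (h : Q5 D ψ A B C) : Q5 D ψ B A C :=
  ⟨fun F => by rw [h.sum]; ring, fun ζ => by rw [h.mem]; tauto, h.sgn⟩

theorem Q5.rot (h : Q5 D ψ A B C) : Q5 D ψ B C A :=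
  ⟨fun F => by rw [h.sum]; ring, fun ζ => by rw [h.mem]; tauto, h.sgn⟩

theorem val_two [IsSimpleGroup G] (hG : ¬ IsMulCommutative G) {z : G} (h1 : z ≠ 1)
    (h2 : z * z = 1) (h3 : ¬ 2 ∣ (centralizer ({z} : Set G)).index) {ζ : IrrCharacter G}
    (hζ : ζ ≠ irrOne G) (i : ℕ) (hi : 2 ^ i ∣ charDegree ζ.1) :
    ∃ n : ℤ, ζ.1 z = (2 ^ i * n : ℤ) ∧ |2 ^ i * n| < charDegree ζ.1 := by
  obtain ⟨a, b, -, h⟩ := ζ.2.isCharacter.exists_nat_sub_of_mul_self h2
  have h4 : ζ.1 z = ((a - b : ℤ) : ℂ) := by rw [h]; simp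
  have h5 := (Int.natCast_dvd_natCast.2 hi).trans (deg_dvd_mul ζ h4)
  obtain ⟨n, hn⟩ := (Nat.isCoprime_iff_coprime.2 (((Nat.Prime.coprime_iff_not_dvd
    Nat.prime_two).2 h3).pow_left i)).dvd_of_dvd_mul_left h5
  push_cast at hn
  exact ⟨n, hn ▸ h4, hn ▸ abs_lt_deg hG hζ h1 h4⟩

theorem Q5.kill [Fact (Nat.Prime 5)] [IsSimpleGroup G] (hG : ¬ IsMulCommutative G)
    (h : Q5 D ψ A B C) (P : Sylow 5 G) (hP : Nat.card P = 5) (h13 : 13 ∣ Nat.card G)
    (hψ : charDegree ψ.1 = 64)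
    (hs : Sol (co D A * charDegree A.1) (co D B * charDegree B.1) (co D C * charDegree C.1)) :
    False := by
  have mψ := (h.mem ψ).2 (by simp)
  have mA := (h.mem A).2 (by simp)
  have mB := (h.mem B).2 (by simp)
  have mC := (h.mem C).2 (by simp)
  have sA := (h.sgn A mA).1
  have sB := (h.sgn B mB).1
  have sC := (h.sgn C mC).1
  obtain ⟨w, -, hw⟩ := CL.Small.exists_mem_orderOf_eq_prime (P : Subgroup G) 5 (by rw [hP])
  obtain ⟨z, z1, z2, z3⟩ := exists_central (G := G)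
    ((by rw [hψ]; norm_num : 2 ∣ charDegree ψ.1).trans ψ.2.charDegree_dvd_card)
  obtain ⟨n, hn⟩ := pair D P hP hw z
  have hr := sum_reg D (g := z) fun k => absurd (k.trans (orderOf_dvd_of_pow_eq_one
    (by rw [sq, z2] : z ^ 2 = 1))) (by norm_num)
  rw [h.sum fun χ => χ.1 z] at hr
  rw [h.sum fun χ => χ.1 z ^ 2 / χ.1 1] at hn
  obtain ⟨v, hv, hv'⟩ := val_two hG z1 z2 z3 (D.ne_one mψ) 6 (by rw [hψ]; rfl)
  obtain rfl : v = 0 := by rw [hψ, abs_lt] at hv'; omega
  obtain ⟨I, hI⟩ := D.deg_dvd hw mB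
  have hk : IsCoprime ((2 : ℤ) ^ 7) (((centralizer ({z} : Set G)).index : ℤ) ^ 2) :=
    (Nat.isCoprime_iff_coprime.2 ((Nat.Prime.coprime_iff_not_dvd Nat.prime_two).2 z3)).pow
  rw [hI, hv, irrOne_apply, irrOne_apply, A.2.apply_one_eq_charDegree,
    B.2.apply_one_eq_charDegree, C.2.apply_one_eq_charDegree] at hn
  rw [hv, irrOne_apply] at hr
  have V := fun ζ => val_two hG z1 z2 z3 (ζ := ζ)
  generalize (centralizer ({z} : Set G)).index = k at hn hk
  rcases hs with ⟨a, b, c⟩ | ⟨a, b, c⟩ | ⟨a, b, c⟩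
  · obtain ⟨a1, a2⟩ : co D A = 1 ∧ charDegree A.1 = 6 := by
      rcases sA with j | j <;> rw [j] at a <;> omega
    have b2 : charDegree B.1 = 96 := by rcases sB with j | j <;> rw [j] at b <;> omega
    have c2 : charDegree C.1 = 39 := by rcases sC with j | j <;> rw [j] at c <;> omega
    have := schur (b := 1) (k := 0) (D.ne_one mA) (int_of_unique D fun ζ k1 k2 => by
      have k3 : ζ ≠ irrOne G := fun j => by
        rw [j, show charDegree (irrOne G).1 = 1 from charDegree_const_one] at k2; omega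
      rcases (h.mem ζ).1 (mem_of_co D k3 (by omega)) with j | j | j | j <;>
        first | exact j | (rw [j] at k2; omega)) (by norm_num : Nat.Prime 13) h13 (by norm_num)
      (by rw [a2]; norm_num)
    omega
  · obtain ⟨a1, a2⟩ : co D A = -1 ∧ charDegree A.1 = 24 := by
      rcases sA with j | j <;> rw [j] at a <;> omega
    obtain ⟨b1, b2⟩ : co D B = 1 ∧ charDegree B.1 = 256 := by
      rcases sB with j | j <;> rw [j] at b <;> omega
    obtain ⟨c1, c2⟩ : co D C = -1 ∧ charDegree C.1 = 169 := by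
      rcases sC with j | j <;> rw [j] at c <;> omega
    obtain ⟨x, hx, hx'⟩ := V A (D.ne_one mA) 3 (by rw [a2]; norm_num)
    obtain ⟨y, hy, hy'⟩ := V B (D.ne_one mB) 8 (by rw [b2]; norm_num)
    obtain rfl : y = 0 := by rw [b2, abs_lt] at hy'; omega
    rw [a1, b1, c1, hx, hy] at hr hn
    rw [a2, b2, c2, show C.1 z = 1 - 8 * x by push_cast at hr; linear_combination -hr] at hn
    have h1 : (k : ℤ) ^ 2 * (504 + 48 * x - 1544 * x ^ 2) = 2 ^ 7 * (5070 * I * n) := by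
      have : (k : ℂ) ^ 2 * (504 + 48 * x - 1544 * x ^ 2) = 2 ^ 7 * (5070 * I * n) := by
        push_cast at hn; linear_combination 507 * hn
      exact_mod_cast this
    have h2 := hk.dvd_of_dvd_mul_left ⟨_, h1⟩
    rw [a2, abs_lt] at hx'
    obtain ⟨h3, h4⟩ : -2 ≤ x ∧ x ≤ 2 := by omega
    interval_cases x <;> norm_num at h2
  · obtain ⟨a1, a2⟩ : co D A = -1 ∧ charDegree A.1 = 384 := by
      rcases sA with j | j <;> rw [j] at a <;> omega
    obtain ⟨b1, b2⟩ : co D B = -1 ∧ charDegree B.1 = 6144 := by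
      rcases sB with j | j <;> rw [j] at b <;> omega
    obtain ⟨c1, c2⟩ : co D C = 1 ∧ charDegree C.1 = 6591 := by
      rcases sC with j | j <;> rw [j] at c <;> omega
    obtain ⟨x, hx, -⟩ := V A (D.ne_one mA) 7 (by rw [a2]; norm_num)
    obtain ⟨y, hy, -⟩ := V B (D.ne_one mB) 11 (by rw [b2]; norm_num)
    rw [a1, b1, c1, hx, hy] at hr hn
    rw [a2, b2, c2, show C.1 z = 128 * (x + 16 * y) - 1 by
      push_cast at hr; linear_combination hr] at hn
    have h1 : (k : ℤ) ^ 2 * (64 + 128 * (51 - 2197 * x ^ 2 - 35152 * y ^ 2 +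
        128 * (x + 16 * y) ^ 2 - 2 * (x + 16 * y))) = 2 ^ 7 * (1581840 * I * n) := by
      have : (k : ℂ) ^ 2 * (64 + 128 * (51 - 2197 * x ^ 2 - 35152 * y ^ 2 +
          128 * (x + 16 * y) ^ 2 - 2 * (x + 16 * y))) = 2 ^ 7 * (1581840 * I * n) := by
        push_cast at hn; linear_combination 6591 * hn
      exact_mod_cast this
    have h2 := hk.dvd_of_dvd_mul_left ⟨_, h1⟩
    generalize 51 - 2197 * x ^ 2 - 35152 * y ^ 2 + 128 * (x + 16 * y) ^ 2 - 2 * (x + 16 * y) = t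
      at h2
    clear * - h2
    omega

theorem not_64 [IsSimpleGroup G] (hG : ¬ IsMulCommutative G) {a b : ℕ}
    (h : Nat.card G = 2 ^ a * 3 * 5 * 13 ^ b) {χ ψ : IrrCharacter G} (T : T3 χ ψ) :
    charDegree ψ.1 ≠ 64 := by
  classical
  intro h64
  have := Fact.mk Nat.prime_five
  have hperf := CL.Small.commutator_eq_top hG
  have h65 : charDegree χ.1 = 65 := by rw [T.deg, h64]
  have cp : ∀ {n : ℕ}, n.Coprime 2 → n.Coprime 3 → n.Coprime 13 →
      n.Coprime (2 ^ a * 3 * 13 ^ b) := fun c2 c3 c13 =>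
    ((c2.pow_right a).mul_right c3).mul_right (c13.pow_right b)
  have h' : Nat.card G = 5 ^ 1 * (2 ^ a * 3 * 13 ^ b) := by rw [h]; ring
  have n5 : ¬ 5 ∣ 2 ^ a * 3 * 13 ^ b := (Nat.Prime.coprime_iff_not_dvd Nat.prime_five).1
    (cp (by norm_num) (by norm_num) (by norm_num))
  obtain ⟨P⟩ : Nonempty (Sylow 5 G) := inferInstance
  have hP : Nat.card P = 5 := CL.Small.card_sylow_eq_of_factor P h' n5
  obtain ⟨D⟩ := exists_data hperf (by norm_num) P hP rfl
  generalize (centralizer ((P : Subgroup G) : Set G)).relIndex _ = e at D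
  obtain ⟨w, -, hw⟩ := CL.Small.exists_mem_orderOf_eq_prime (P : Subgroup G) 5 (by rw [hP])
  have h1 := co_rel D (χ := χ) (ψ := ψ) fun g hg => T.reg g fun k => by
    have := eq_zero_of_not_dvd Nat.prime_five (χ := χ) (fun j => not_sq_dvd P hP
      ((by rw [h65]; norm_num : 5 ^ 2 ∣ 5 * charDegree χ.1).trans j)) hg
    rw [T.sχ g k] at this
    norm_num at this
  have h2 : co D χ = 0 := by
    by_contra k
    exact D.not_dvd_deg hw (mem_of_co D T.nχ k) (by rw [h65]; norm_num)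
  have hy := Finset.card_pos.2 D.Y_nonempty
  have mψ := mem_of_co D T.nψ (by omega)
  have hε := D.ε_sign
  have he : e + 1 = 5 := by
    have h3 := e_ne_one D hperf
    have h4 := D.card_Y
    have h5 : e ∣ 4 := Dvd.intro_left _ (by omega : D.Y.card * e = 4)
    have h6 := Nat.le_of_dvd (by norm_num) h5
    have h7 : e ≠ 2 := by
      rintro rfl
      have h8 : ψ ∈ D.X := mψ.resolve_right fun k => by rw [co_Y D k] at h1; omega
      obtain ⟨ζ, hζ⟩ := Finset.card_eq_one.1 (by have := D.card_X; omega : D.X.card = 1)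
      obtain ⟨θ, hθ⟩ := D.Y_nonempty
      have h9 := D.deg_eqn hθ
      have h10 := co_X D h8
      rw [hζ, Finset.mem_singleton] at h8
      rw [hζ, Finset.sum_singleton, ← h8, h64] at h9
      have h11 : charDegree θ.1 = 63 := by
        rcases D.δ_sign ψ (by simp [hζ, h8]) with j | j <;> rcases hε with k | k <;>
          rw [j] at h9 h10 <;> rw [k] at h9 <;> omega
      have h12 : 7 ∣ 5 ^ 1 * (2 ^ a * 3 * 13 ^ b) := h' ▸
        (by rw [h11]; norm_num : 7 ∣ charDegree θ.1).trans θ.2.charDegree_dvd_card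
      exact (Nat.Prime.coprime_iff_not_dvd (by norm_num : Nat.Prime 7)).1
        (Nat.Coprime.mul_right (by norm_num) (cp (by norm_num) (by norm_num) (by norm_num))) h12
    clear * - h3 h5 h6 h7
    interval_cases e <;> omega
  obtain ⟨c1, Z, hZ, hm, hs, hv⟩ := full D he (h' ▸ Dvd.intro _ rfl)
  have cψ : co D ψ = -1 := by rw [co_one] at c1; omega
  obtain ⟨A, B, C, n1, n2, n3, hE⟩ := Finset.card_eq_three.1
    (by have := Finset.card_erase_add_one ((hm ψ).2 mψ); omega : (Z.erase ψ).card = 3)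
  have Q : Q5 D ψ A B C := by
    refine ⟨fun F => ?_, fun ζ => ?_, fun ζ k => ⟨(hv ζ ((hm ζ).2 k)).1, (hv ζ ((hm ζ).2 k)).2.1⟩⟩
    · rw [hs, ← Finset.add_sum_erase _ _ ((hm ψ).2 mψ), hE, cψ,
        Finset.sum_insert (by simp [n1, n2]), Finset.sum_pair n3]
      push_cast; ring
    · rw [← hm, ← Finset.insert_erase ((hm ψ).2 mψ), hE]
      simp
  have hb : b ≤ 5 := schur T.nψ T.iψ (by norm_num : Nat.Prime 13) (h ▸ Dvd.intro_left _ rfl)
    (by norm_num) (by rw [h64]; norm_num)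
  have h13 : 13 ∣ Nat.card G :=
    (by rw [h65]; norm_num : 13 ∣ charDegree χ.1).trans χ.2.charDegree_dvd_card
  have hd : ∀ ζ, ζ ∈ D.X ∨ ζ ∈ D.Y → co D ζ * charDegree ζ.1 ∣ 2 ^ a * 3 * 13 ^ 5 ∧
      co D ζ * charDegree ζ.1 % 5 = 1 ∧ co D ζ * charDegree ζ.1 ≠ 1 := fun ζ k => by
    have d1 : charDegree ζ.1 ∣ 2 ^ a * 3 * 13 ^ 5 :=
      ((((Nat.Prime.coprime_iff_not_dvd Nat.prime_five).2 (D.not_dvd_deg hw k)).symm.pow_right
        1).dvd_of_dvd_mul_left (h' ▸ ζ.2.charDegree_dvd_card)).trans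
          (mul_dvd_mul_left _ (pow_dvd_pow 13 hb))
    have d2 : (charDegree ζ.1 : ℤ) ∣ 2 ^ a * 3 * 13 ^ 5 := by exact_mod_cast d1
    have d3 := degree_ne_one hperf (D.ne_one k)
    obtain ⟨d4, d5⟩ := Q.sgn ζ k
    unfold Int.ModEq at d5
    clear d1
    rcases d4 with j | j <;> rw [j] at d5 ⊢
    · exact ⟨by simpa using d2, by clear d2; omega, by clear d2; omega⟩
    · exact ⟨by simpa using d2, by clear d2; omega, by clear d2; omega⟩
  have hsum : ∀ A B C, Q5 D ψ A B C →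
      co D A * charDegree A.1 + co D B * charDegree B.1 + co D C * charDegree C.1 = 63 :=
    fun A B C Q => by
      have := (Q.sum fun ζ => ζ.1 1).symm.trans (sum_reg D (by simp))
      rw [irrOne_apply, ψ.2.apply_one_eq_charDegree, A.2.apply_one_eq_charDegree,
        B.2.apply_one_eq_charDegree, C.2.apply_one_eq_charDegree, h64] at this
      have h3 : (co D A * charDegree A.1 + co D B * charDegree B.1 +
          co D C * charDegree C.1 : ℂ) = 63 := by push_cast at this; linear_combination this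
      exact_mod_cast h3
  have key : ∀ A B C, Q5 D ψ A B C → co D C * charDegree C.1 % 2 ≠ 1 := fun A B C Q k => by
    obtain ⟨a1, a2, -⟩ := hd A ((Q.mem A).2 (by simp))
    obtain ⟨b1, b2, -⟩ := hd B ((Q.mem B).2 (by simp))
    obtain ⟨c1, c2, c3⟩ := hd C ((Q.mem C).2 (by simp))
    rcases enum a1 b1 c1 a2 b2 c2 c3 k (hsum A B C Q) with j | j
    exacts [Q.kill hG P hP h13 h64 j, Q.swap.kill hG P hP h13 h64 j]
  have k1 := key _ _ _ Q
  have k2 := key _ _ _ Q.rot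
  have k3 := key _ _ _ Q.rot.rot
  have k4 := hsum _ _ _ Q
  clear * - k1 k2 k3 k4
  omega

end CL.K4
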