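import Cfsg.Agent.INV.Def1Ex
import Cfsg.Agent.INV.Def1Loc
import Cfsg.Agent.CHAR.Galois
import Cfsg.Agent.CHAR.ClassMult
import Cfsg.Agent.S4488

/-! The multiple `p · 1` of the indicator function of the `p`-singular elements expanded in the
principal block, when `p` divides the order exactly once; rationality and class sums. -/

set_option autoImplicit false
open Cfsg Subgroup CL.Char CL.D1
open CL.Blk hiding irrOne irrOne_apply
open scoped ComplexConjugate

namespace CL.K4

variable {G : Type*} [Group G] [Finite G] {p e : ℕ} [hp : Fact p.Prime] (D : Data G p e)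

/-- `p` times the indicator function of the `p`-singular elements. -/
noncomputable def sg (G : Type*) [Group G] (p : ℕ) : G → ℂ :=
  fun g => if p ∣ orderOf g then p else 0

open Classical in
/-- The coefficients of `sg` with respect to the irreducible characters. -/
noncomputable def co (χ : IrrCharacter G) : ℤ :=
  (if χ = irrOne G then (D.Y.card : ℤ) else 0) + (if χ ∈ D.X then D.Y.card * D.δ χ else 0) +
    if χ ∈ D.Y then -D.ε else 0

omit [Finite G] hp in
theorem co_one : co D (irrOne G) = D.Y.card := by simp [co, D.one_X, D.one_Y]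

omit [Finite G] hp in
theorem co_X {χ : IrrCharacter G} (h : χ ∈ D.X) : co D χ = D.Y.card * D.δ χ := by
  simp [co, h, D.ne_one (Or.inl h), Finset.disjoint_left.1 D.disj h]

omit [Finite G] hp in
theorem co_Y {χ : IrrCharacter G} (h : χ ∈ D.Y) : co D χ = -D.ε := by
  simp [co, h, D.ne_one (Or.inr h), Finset.disjoint_right.1 D.disj h]

omit [Finite G] hp in
theorem mem_of_co {χ : IrrCharacter G} (h1 : χ ≠ irrOne G) (h : co D χ ≠ 0) :
    χ ∈ D.X ∨ χ ∈ D.Y := by
  by_contra k
  rw [not_or] at k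
  simp [co, h1, k.1, k.2] at h

omit hp in
theorem sum_co (F : IrrCharacter G → ℂ) : ∑ χ, (co D χ : ℂ) * F χ =
    D.Y.card * (F (irrOne G) + ∑ χ ∈ D.X, D.δ χ * F χ) - D.ε * ∑ θ ∈ D.Y, F θ := by
  classical
  simp only [co, Int.cast_add, add_mul, Finset.sum_add_distrib, apply_ite (Int.cast : ℤ → ℂ),
    ite_mul, Int.cast_zero, zero_mul, Finset.sum_ite_eq', Finset.mem_univ, if_true,
    Finset.sum_ite_mem, Finset.univ_inter, mul_add, Finset.mul_sum]
  push_cast
  simp only [mul_assoc, neg_mul, Finset.sum_neg_distrib]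
  ring

omit hp in
theorem sg_eq : sg G p = ∑ χ : IrrCharacter G, (co D χ : ℂ) • χ.1 := by
  funext g
  simp only [Finset.sum_apply, Pi.smul_apply, smul_eq_mul]
  rw [sum_co D fun χ => χ.1 g, sg, irrOne_apply]
  split_ifs with h
  · rw [D.sum_Y g h, Finset.sum_congr rfl (g := fun _ => (1 : ℂ)) fun χ hχ => by
      rw [D.val_X χ hχ g h]; exact_mod_cast D.δ_sq hχ]
    have h1 : (D.Y.card : ℂ) * e + 1 = p := by exact_mod_cast D.card_Y
    have h2 : (D.X.card : ℂ) + 1 = e := by exact_mod_cast D.card_X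
    simp only [Finset.sum_const, nsmul_eq_mul, mul_one]
    linear_combination -h1 - D.Y.card * h2 - D.ε_sqC
  · rw [Finset.mul_sum D.Y, Finset.sum_congr rfl fun θ hθ => D.eqn θ hθ g h]
    rw [Finset.sum_const, nsmul_eq_mul, sub_self]

omit hp in
theorem inner_sg [Fintype G] (χ : IrrCharacter G) : classInner (sg G p) χ.1 = co D χ := by
  rw [sg_eq D, classInner_sum_irr]

omit hp in
theorem co_gal (σ : ℂ ≃+* ℂ) (χ : IrrCharacter G) : co D (galIrr G σ χ) = co D χ := by
  have := Fintype.ofFinite G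
  have h := classInner_gal (sg G p) χ.2.isGen (σ : ℂ →+* ℂ)
  have h1 : (fun g => (σ : ℂ →+* ℂ) (sg G p g)) = sg G p := by
    funext g; unfold sg; split_ifs <;> simp
  rw [h1, inner_sg D, map_intCast] at h
  have h2 := inner_sg D (galIrr G σ χ)
  rw [coe_galIrr] at h2
  exact_mod_cast h2.symm.trans h

omit hp in
/-- A relation between characters on the singular elements gives one between the coefficients. -/
theorem co_rel {χ ψ : IrrCharacter G} (h : ∀ g, p ∣ orderOf g → χ.1 g = 1 + ψ.1 g) :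
    co D χ = D.Y.card + co D ψ := by
  have := Fintype.ofFinite G
  have h1 : classInner (sg G p) χ.1 = classInner (sg G p) ((irrOne G).1 + ψ.1) := by
    rw [classInner_def, classInner_def]
    congr 1
    refine Finset.sum_congr rfl fun g _ => ?_
    unfold sg
    split_ifs with k
    · rw [h g k]; rfl
    · simp
  rw [classInner_add_right, inner_sg D, inner_sg D, inner_sg D, co_one] at h1
  exact_mod_cast h1

omit hp in
theorem deg_gal (σ : ℂ ≃+* ℂ) (χ : IrrCharacter G) :
    charDegree (galIrr G σ χ).1 = charDegree χ.1 :=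
  χ.2.isCharacter.charDegree_gal (σ : ℂ →+* ℂ)

omit hp in
theorem int_of_unique {χ : IrrCharacter G} (h : ∀ ζ : IrrCharacter G, co D ζ = co D χ →
    charDegree ζ.1 = charDegree χ.1 → ζ = χ) (g : G) : ∃ n : ℤ, χ.1 g = n :=
  exists_int_of_fixed (χ.2.isIntegral g) fun σ => by
    rw [← galIrr_apply, h _ (co_gal D σ χ) (deg_gal σ χ)]

omit hp in
/-- With at least two exceptional characters, these are integral on regular elements. -/
theorem int_Y (h2 : 2 ≤ D.Y.card) {θ : IrrCharacter G} (h : θ ∈ D.Y) {g : G}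
    (hg : ¬ p ∣ orderOf g) : ∃ n : ℤ, θ.1 g = n :=
  exists_int_of_fixed (θ.2.isIntegral g) fun σ => by
    rw [← galIrr_apply]
    have h1 := (co_gal D σ θ).trans (co_Y D h)
    have h3 := D.ε_sign
    have h4 : galIrr G σ θ ≠ irrOne G := fun k => by rw [k, co_one] at h1; omega
    rcases mem_of_co D h4 (by omega) with k | k
    · rw [co_X D k] at h1
      rcases D.δ_sign _ k with j | j <;> rw [j] at h1 <;> omega
    · exact D.Y_eq k h hg

theorem index_dvd (P : Sylow p G) (hP : Nat.card P = p) {w g : G} (hw : orderOf w = p)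
    (hg : p ∣ orderOf g) :
    (centralizer ({w} : Set G)).index ∣ (centralizer ({g} : Set G)).index := by
  obtain ⟨x, hx, ho⟩ := exists_decomp P hP hg
  have h1 : (centralizer ({w} : Set G)).index = (centralizer ({x} : Set G)).index := by
    refine Nat.eq_of_mul_eq_mul_left (Nat.card_pos (α := centralizer ({w} : Set G))) ?_
    rw [card_mul_index, card_centralizer_eq P hP hw, ← card_centralizer_eq P hP ho, card_mul_index]
  rw [h1]
  refine index_dvd_of_le fun c hc => CL.Small.mem_centralizer_singleton_iff'.2 ?_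
  exact (hx.commute_of_commute hp.out (c := c)
    (CL.Small.mem_centralizer_singleton_iff'.1 hc)).eq

omit [Finite G] hp in
theorem dvd_sum_class [Fintype G] {h : G → ℕ} (hc : ∀ a b, IsConj a b → h a = h b) {d : ℕ}
    (hd : ∀ g, h g ≠ 0 → d ∣ (centralizer ({g} : Set G)).index) : d ∣ ∑ g, h g := by
  classical
  rw [← Finset.sum_fiberwise_of_maps_to (t := Finset.univ) (g := ConjClasses.mk)
    fun _ _ => Finset.mem_univ _]
  refine Finset.dvd_sum fun C _ => ?_
  obtain ⟨a, rfl⟩ := ConjClasses.mk_surjective C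
  rw [Finset.sum_congr rfl (g := fun _ => h a) fun b hb =>
    hc b a (ConjClasses.mk_eq_mk_iff_isConj.1 (Finset.mem_filter.1 hb).2), Finset.sum_const,
    smul_eq_mul]
  by_cases h0 : h a = 0
  · simp [h0]
  refine ((hd a h0).trans (dvd_of_eq ?_)).mul_right _
  rw [← card_conj_eq_index, Nat.card_eq_fintype_card, Fintype.card_subtype]
  congr 1
  ext b
  simp only [Finset.mem_filter, ConjClasses.mk_eq_mk_iff_isConj, isConj_comm (h := a)]

/-- The number of pairs of conjugates of `z` with singular product. -/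
theorem pair (P : Sylow p G) (hP : Nat.card P = p) {w : G} (hw : orderOf w = p) (z : G) :
    ∃ n : ℕ, ((centralizer ({z} : Set G)).index : ℂ) ^ 2 *
      ∑ χ, (co D χ : ℂ) * (χ.1 z ^ 2 / χ.1 1) = p * ((centralizer ({w} : Set G)).index * n) := by
  classical
  have := Fintype.ofFinite G
  let f : G → ℂ := fun x => if IsConj z x then 1 else 0
  have hf : IsClassFunction G f := isClassFunction_indicator z
  let m : G → ℕ := fun c => (Finset.univ.filter fun x => IsConj z x ∧ IsConj z (x⁻¹ * c)).card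
  have hm : ∀ c, conv f f c = m c := fun c => by
    simp only [conv_apply, f, m, ite_mul, one_mul, zero_mul, ← ite_and, Finset.sum_boole]
  obtain ⟨n, hn⟩ := dvd_sum_class (h := fun c => if p ∣ orderOf c then m c else 0)
    (d := (centralizer ({w} : Set G)).index) (fun a b k => by
      have : (m a : ℂ) = m b := by rw [← hm, ← hm, (hf.conv hf).eq_of_isConj k]
      rw [CL.Small.orderOf_eq_of_isConj k, Nat.cast_injective this])
    fun g k => index_dvd P hP hw (by by_contra j; simp [j] at k)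
  refine ⟨n, ?_⟩
  have h1 : ∑ c, conv f f c * sg G p c = p * ((centralizer ({w} : Set G)).index * n) := by
    rw [← Nat.cast_mul, ← hn]
    push_cast
    rw [Finset.mul_sum]
    refine Finset.sum_congr rfl fun c _ => ?_
    rw [hm, sg]
    split_ifs <;> simp [mul_comm]
  rw [← h1, sg_eq D]
  simp only [Finset.sum_apply, Pi.smul_apply, smul_eq_mul, Finset.mul_sum]
  rw [Finset.sum_comm]
  refine Finset.sum_congr rfl fun χ _ => ?_
  have h2 : ∑ x, f x * χ.1 x = (centralizer ({z} : Set G)).index * χ.1 z := by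
    rw [← card_conj_eq_index, ← sum_ite_isConj χ.2.isClassFunction]
    simp [f]
  simp only [mul_left_comm _ (co D χ : ℂ), ← Finset.mul_sum]
  rw [χ.2.sum_conv_mul hf, h2]
  ring

omit hp in
theorem deg_dvd_mul (χ : IrrCharacter G) {g : G} {n : ℤ} (h : χ.1 g = n) :
    (charDegree χ.1 : ℤ) ∣ (centralizer ({g} : Set G)).index * n := by
  have h1 := χ.2.isIntegral_centralChar g
  rw [centralChar, h, χ.2.apply_one_eq_charDegree] at h1
  exact dvd_of_isIntegral_div χ.2.charDegree_pos (by simpa using h1)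

omit hp in
theorem faithful [IsSimpleGroup G] {χ : IrrCharacter G} (h1 : χ ≠ irrOne G) :
    charKer χ.1 = ⊥ :=
  χ.2.charKer_eq_bot_of_simple fun k => h1 (Subtype.ext k)

omit hp in
theorem abs_lt_deg [IsSimpleGroup G] (hG : ¬ IsMulCommutative G) {χ : IrrCharacter G}
    (h1 : χ ≠ irrOne G) {g : G} (hg : g ≠ 1) {n : ℤ} (h : χ.1 g = n) :
    |n| < charDegree χ.1 := by
  have h2 := χ.2.isCharacter.norm_le g
  have h3 : ‖χ.1 g‖ ≠ charDegree χ.1 := fun k => hG ⟨⟨mul_comm_of_simple_of_mem_center hg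
    (χ.2.charCenter_eq_center (faithful h1) ▸ χ.2.mem_charCenter.2 k)⟩⟩
  have h4 := lt_of_le_of_ne h2 h3
  rw [h, Complex.norm_intCast] at h4
  exact_mod_cast h4

omit hp in
theorem schur0 {χ : G → ℂ} (hχ : IsCharacter G χ) (hf : ∀ g, χ g = χ 1 → g = 1)
    (hi : ∀ g, ∃ n : ℤ, χ g = n) {q : ℕ} (hq : q.Prime) {n : ℕ} (hn : charDegree χ = n) :
    (Nat.card G).factorization q ≤ ∑ i ∈ Finset.range (n + 1), n / ((q - 1) * q ^ i) :=
  Cfsg.Agent.S4488.result q hq χ hχ hf ⟨1, one_pos, hq.one_lt.ne' ∘ Nat.dvd_one.1, fun g => by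
    obtain ⟨n, hn⟩ := hi g
    rw [hn]; exact intCast_mem _ n⟩ n hn

omit hp in
/-- Schur's bound for a rational character of small degree. -/
theorem schur [IsSimpleGroup G] {χ : IrrCharacter G} (h1 : χ ≠ irrOne G)
    (hi : ∀ g, ∃ n : ℤ, χ.1 g = n) {q b k : ℕ} (hq : q.Prime) (hb : q ^ b ∣ Nat.card G)
    (hk : k < q) (hlt : charDegree χ.1 < (q - 1) * (k + 1)) : b ≤ k := by
  have h := schur0 χ.2.isCharacter (χ.2.isCharacter.charKer_eq_bot_iff.1 (faithful h1)) hi hq rfl
  rw [Finset.sum_range_succ', Finset.sum_eq_zero fun i _ => Nat.div_eq_of_lt (hlt.trans_le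
    (Nat.mul_le_mul_left _ (hk.trans_le (Nat.le_self_pow (by omega) q)))), zero_add, pow_zero,
    mul_one] at h
  have h2 := (hq.pow_dvd_iff_le_factorization Nat.card_pos.ne').1 hb
  have h3 := Nat.div_lt_of_lt_mul hlt
  omega

omit hp in
theorem exists_central (h : 2 ∣ Nat.card G) :
    ∃ z : G, z ≠ 1 ∧ z * z = 1 ∧ ¬ 2 ∣ (centralizer ({z} : Set G)).index := by
  obtain ⟨T⟩ : Nonempty (Sylow 2 G) := inferInstance
  obtain ⟨y, hy, h1, hc⟩ := CL.Small.center_inf_ne_bot T.2 (T.ne_bot_of_dvd_card h)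
  obtain ⟨k, hk⟩ := CL.Small.orderOf_mem_sylow T hy
  obtain ⟨k, rfl⟩ : ∃ j, k = j + 1 := Nat.exists_eq_succ_of_ne_zero (by
    rintro rfl; exact h1 (by simpa using hk))
  refine ⟨y ^ 2 ^ k, fun j => ?_, by rw [← pow_add, ← mul_two, ← pow_succ, ← hk, pow_orderOf_eq_one],
    fun j => T.not_dvd_index (j.trans (index_dvd_of_le fun t ht => ?_))⟩
  · have := Nat.le_of_dvd (by positivity) (hk ▸ orderOf_dvd_of_pow_eq_one j)
    exact absurd this (not_le.2 (Nat.pow_lt_pow_right one_lt_two k.lt_succ_self))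
  · exact CL.Small.mem_centralizer_singleton_iff'.2 (Commute.pow_right (hc t ht) _).eq.symm

end CL.K4
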