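import Cfsg.Agent.INV.K4.Sg
import Cfsg.Agent.S0996

/-! The principal `3`-block for a Sylow `3`-subgroup of order `3`; the orders
`2 ^ a * 3 * 5 * 7` and `2 ^ a * 3 * 5 * 11`. -/

set_option autoImplicit false
open Cfsg Subgroup CL.Char CL.D1
open CL.Blk hiding irrOne irrOne_apply

namespace CL.K4

variable {G : Type*} [Group G] [Finite G] {p e : ℕ} [hp : Fact p.Prime] (D : Data G p e)

omit hp in
theorem sum_reg {g : G} (hg : ¬ p ∣ orderOf g) : ∑ χ, (co D χ : ℂ) * χ.1 g = 0 := by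
  have := congrFun (sg_eq D) g
  simpa [sg, hg] using this.symm

include D in
theorem e_ne_one (hperf : commutator G = ⊤) : e ≠ 1 := by
  rintro rfl
  obtain ⟨θ, hθ⟩ := D.Y_nonempty
  have h := D.deg_eqn hθ
  rw [Finset.card_eq_zero.1 (by have := D.card_X; omega : D.X.card = 0), Finset.sum_empty] at h
  have := degree_ne_one hperf (D.ne_one (Or.inr hθ))
  rcases D.ε_sign with k | k <;> rw [k] at h <;> omega

/-- The case without exceptional characters. -/
theorem full (he : e + 1 = p) (hpG : p ∣ Nat.card G) : co D (irrOne G) = 1 ∧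
    ∃ Z : Finset (IrrCharacter G), Z.card + 1 = p ∧ (∀ χ, χ ∈ Z ↔ χ ∈ D.X ∨ χ ∈ D.Y) ∧
      (∀ F : IrrCharacter G → ℂ,
        ∑ χ, (co D χ : ℂ) * F χ = F (irrOne G) + ∑ χ ∈ Z, (co D χ : ℂ) * F χ) ∧
      ∀ χ ∈ Z, (co D χ = 1 ∨ co D χ = -1) ∧ (charDegree χ.1 : ℤ) ≡ co D χ [ZMOD p] ∧
        ∀ g, p ∣ orderOf g → χ.1 g = co D χ := by
  classical
  have h1 : D.Y.card = 1 := Nat.eq_of_mul_eq_mul_right D.e_pos (by have := D.card_Y; omega)
  obtain ⟨x, hx⟩ := exists_prime_orderOf_dvd_card' p hpG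
  refine ⟨by rw [co_one, h1]; rfl, D.X ∪ D.Y, ?_, fun χ => Finset.mem_union, fun F => ?_,
    fun χ hχ => ?_⟩
  · rw [Finset.card_union_of_disjoint D.disj, h1, D.card_X, he]
  · have e1 : ∑ χ ∈ D.X, (co D χ : ℂ) * F χ = ∑ χ ∈ D.X, (D.δ χ : ℂ) * F χ :=
      Finset.sum_congr rfl fun χ h => by rw [co_X D h, h1]; simp
    have e2 : ∑ χ ∈ D.Y, (co D χ : ℂ) * F χ = ∑ χ ∈ D.Y, -(D.ε : ℂ) * F χ :=
      Finset.sum_congr rfl fun χ h => by rw [co_Y D h]; simp
    rw [sum_co, Finset.sum_union D.disj, e1, e2, ← Finset.mul_sum, h1]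
    push_cast; ring
  · rcases Finset.mem_union.1 hχ with h | h
    · rw [co_X D h, h1, Nat.cast_one, one_mul]
      exact ⟨D.δ_sign χ h, D.deg_X hx h, D.val_X χ h⟩
    · rw [co_Y D h]
      refine ⟨by have := D.ε_sign; omega, (D.deg_Y χ h).trans (Int.modEq_iff_dvd.2 ⟨-D.ε, ?_⟩),
        fun g hg => ?_⟩
      · have : (p : ℤ) = e + 1 := by exact_mod_cast he.symm
        rw [this]; ring
      · obtain ⟨θ, hθ⟩ := Finset.card_eq_one.1 h1
        have := D.sum_Y g hg
        rw [hθ, Finset.mem_singleton] at h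
        rw [hθ, Finset.sum_singleton, ← h] at this
        rw [this]; simp

/-- The nontrivial characters in the principal `3`-block. -/
structure T3 (χ ψ : IrrCharacter G) : Prop where
  nχ : χ ≠ irrOne G
  nψ : ψ ≠ irrOne G
  reg : ∀ g, ¬ 3 ∣ orderOf g → χ.1 g = 1 + ψ.1 g
  sχ : ∀ g, 3 ∣ orderOf g → χ.1 g = -1
  sψ : ∀ g, 3 ∣ orderOf g → ψ.1 g = 1
  iχ : ∀ g, ∃ n : ℤ, χ.1 g = n
  iψ : ∀ g, ∃ n : ℤ, ψ.1 g = n
  deg : charDegree χ.1 = charDegree ψ.1 + 1
  md : charDegree ψ.1 % 3 = 1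

omit hp in
theorem exists_T3 (hperf : commutator G = ⊤) {m : ℕ} (h : Nat.card G = 3 * m) (hm : ¬ 3 ∣ m) :
    ∃ χ ψ : IrrCharacter G, T3 χ ψ := by
  classical
  have := Fact.mk Nat.prime_three
  obtain ⟨P⟩ : Nonempty (Sylow 3 G) := inferInstance
  obtain ⟨D⟩ := exists_data hperf (by norm_num) P
    (CL.Small.card_sylow_eq_of_factor P (a := 1) h hm) rfl
  generalize (centralizer ((P : Subgroup G) : Set G)).relIndex _ = e at D
  have he : e + 1 = 3 := by
    have h1 := e_ne_one D hperf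
    have h2 : e ∣ 2 := Dvd.intro_left _ (by have := D.card_Y; omega : D.Y.card * e = 2)
    have := (Nat.dvd_prime Nat.prime_two).1 h2
    omega
  obtain ⟨h1, Z, hZ, hm, hs, hv⟩ := full D he (h ▸ Dvd.intro _ rfl)
  obtain ⟨χ, ψ, hne, rfl⟩ := Finset.card_eq_two.1 (by omega : Z.card = 2)
  have hr : ∀ g, ¬ 3 ∣ orderOf g → 1 + (co D χ * χ.1 g + co D ψ * ψ.1 g) = 0 := fun g hg => by
    have := (hs fun ζ => ζ.1 g).symm.trans (sum_reg D hg)
    rwa [Finset.sum_pair hne] at this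
  have n1 := D.ne_one ((hm χ).1 (by simp))
  have n2 := D.ne_one ((hm ψ).1 (by simp))
  have hz : ∀ ζ, ζ ≠ irrOne G → co D ζ ≠ 0 → ζ = χ ∨ ζ = ψ := fun ζ a b => by
    simpa using (hm ζ).2 (mem_of_co D a b)
  have v1 := hv χ (by simp)
  have v2 := hv ψ (by simp)
  clear hs hv hm hZ
  have hd : 1 + (co D χ * charDegree χ.1 + co D ψ * charDegree ψ.1) = 0 := by
    have := hr 1 (by simp)
    rw [χ.2.apply_one_eq_charDegree, ψ.2.apply_one_eq_charDegree] at this
    exact_mod_cast this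
  have d1 := degree_ne_one hperf n1
  have d2 := degree_ne_one hperf n2
  wlog hc : co D χ = -1 generalizing χ ψ
  · refine this ψ χ hne.symm (fun g hg => by rw [← hr g hg]; ring) n2 n1
      (fun ζ a b => (hz ζ a b).symm) v2 v1 (by rw [← hd]; ring) d2 d1 ?_
    rcases v2.1 with k | k
    · rw [k, v1.1.resolve_right hc] at hd; omega
    · exact k
  have hc' : co D ψ = 1 := v2.1.resolve_right fun k => by rw [k, hc] at hd; omega
  rw [hc, hc'] at hr hd
  have hu : ∀ ζ ξ : IrrCharacter G, 2 ≤ charDegree ξ.1 → charDegree ζ.1 = charDegree ξ.1 →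
      ζ ≠ irrOne G := fun ζ ξ a b c => by
    rw [c, show charDegree (irrOne G).1 = 1 from charDegree_const_one] at b; omega
  refine ⟨χ, ψ, n1, n2, fun g hg => ?_, fun g hg => ?_, fun g hg => ?_,
    int_of_unique D fun ζ a b => ?_, int_of_unique D fun ζ a b => ?_, by omega, ?_⟩
  · have := hr g hg
    push_cast at this
    linear_combination -this
  · rw [v1.2.2 g hg, hc]; simp
  · rw [v2.2.2 g hg, hc']; simp
  · exact (hz ζ (hu ζ χ d1 b) (by omega)).resolve_right fun k => by rw [k] at a; omega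
  · exact (hz ζ (hu ζ ψ d2 b) (by omega)).resolve_left fun k => by rw [k] at a; omega
  · have := v2.2.1
    rw [hc'] at this
    unfold Int.ModEq at this
    omega

omit hp in
theorem not_seven [IsSimpleGroup G] (hG : ¬ IsMulCommutative G) {m : ℕ} (h : Nat.card G = 5 * m)
    (hm : ¬ 5 ∣ m) {χ ψ : IrrCharacter G} (T : T3 χ ψ) : charDegree ψ.1 ≠ 7 := by
  intro h7
  have := Fact.mk Nat.prime_five
  have hperf := CL.Small.commutator_eq_top hG
  have h15 : ∀ g : G, 5 ∣ orderOf g → ¬ 3 ∣ orderOf g := fun g h5 h3 => by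
    have h1 := orderOf_pow_orderOf_div (orderOf_pos g).ne'
      (Nat.Coprime.mul_dvd_of_dvd_of_dvd (by norm_num) h3 h5)
    generalize g ^ (orderOf g / (3 * 5)) = u at h1
    obtain ⟨n, hn⟩ := T.iψ (u ^ 3 ^ 1)
    have h2 := ψ.2.isGen.int_modEq_pow Nat.prime_three 1 (m := 1)
      (by rw [T.sψ u (by rw [h1]; norm_num)]; simp) hn
    have h4 := ψ.2.isGen.int_modEq_one Nat.prime_five (k := 1) (g := u ^ 3 ^ 1) (n := 7)
      (by rw [← pow_mul, ← pow_orderOf_eq_one u, h1]; rfl) hn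
      (by rw [ψ.2.apply_one_eq_charDegree, h7]; simp)
    have h6 := abs_lt_deg hG T.nψ (fun k => by
      have := orderOf_dvd_of_pow_eq_one k; rw [h1] at this; norm_num at this) hn
    rw [h7, abs_lt] at h6
    unfold Int.ModEq at h2 h4
    omega
  obtain ⟨P⟩ : Nonempty (Sylow 5 G) := inferInstance
  obtain ⟨D⟩ := exists_data hperf (by norm_num) P
    (CL.Small.card_sylow_eq_of_factor P (a := 1) h hm) rfl
  generalize (centralizer ((P : Subgroup G) : Set G)).relIndex _ = e at D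
  obtain ⟨x, hx⟩ := exists_prime_orderOf_dvd_card' 5 (h ▸ Dvd.intro _ rfl)
  have h1 := co_rel D fun g hg => T.reg g (h15 g hg)
  have h8 : charDegree χ.1 = 8 := by rw [T.deg, h7]
  have hy := Finset.card_pos.2 D.Y_nonempty
  have hε := D.ε_sign
  have hY : ∀ ζ : IrrCharacter G, ζ ≠ irrOne G → charDegree ζ.1 % 5 = 2 ∨ charDegree ζ.1 % 5 = 3 →
      co D ζ = 0 ∨ (ζ ∈ D.Y ∧ co D ζ = -D.ε ∧ D.Y.card ≠ 1) := fun ζ a b => by
    refine (em _).imp_right fun c => ?_
    rcases mem_of_co D a c with k | k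
    · have := D.deg_X hx k
      have := D.δ_sign ζ k
      unfold Int.ModEq at *
      omega
    · refine ⟨k, co_Y D k, fun j => ?_⟩
      have h2 := D.card_Y
      have h3 := D.deg_Y ζ k
      obtain rfl : e = 4 := by rw [j] at h2; omega
      unfold Int.ModEq at h3
      omega
  rcases hY χ T.nχ (by omega) with a | a <;> rcases hY ψ T.nψ (by omega) with b | b
  · omega
  · omega
  · omega
  · have := D.deg_Y_eq a.1 b.1
    omega

omit hp in
theorem eleven [IsSimpleGroup G] (hG : ¬ IsMulCommutative G) {a : ℕ}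
    (h : Nat.card G = 2 ^ a * 3 * 5 * 11) : ∃ (F : Type) (_ : Field F) (_ : Fintype F),
      Fintype.card F = 11 ∧ Nonempty (G ≃* Matrix.ProjectiveSpecialLinearGroup (Fin 2) F) := by
  have := Fact.mk (by norm_num : Nat.Prime 11)
  have hperf := CL.Small.commutator_eq_top hG
  have c2 : ∀ {n : ℕ}, ¬ 2 ∣ n → n.Coprime (2 ^ a) := fun k =>
    ((Nat.Prime.coprime_iff_not_dvd Nat.prime_two).2 k).symm.pow_right _
  obtain ⟨P⟩ : Nonempty (Sylow 11 G) := inferInstance
  have hP : Nat.card P = 11 := CL.Small.card_sylow_eq_of_factor P (a := 1) (m := 2 ^ a * 15)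
    (by rw [h]; ring) fun k => absurd ((c2 (by norm_num)).dvd_of_dvd_mul_left k) (by norm_num)
  obtain ⟨D⟩ := exists_data hperf (by norm_num) P hP rfl
  have hN := CL.Small.card_centralizer_mul_relIndex (P : Subgroup G)
  generalize (centralizer ((P : Subgroup G) : Set G)).relIndex _ = e at D hN
  obtain ⟨x, hx⟩ := exists_prime_orderOf_dvd_card' 11 (h ▸ Dvd.intro_left _ rfl)
  have hodd : ∀ ζ, ζ ∈ D.X ∨ ζ ∈ D.Y → ¬ 2 ∣ charDegree ζ.1 →
      charDegree ζ.1 = 3 ∨ charDegree ζ.1 = 5 ∨ charDegree ζ.1 = 15 := fun ζ k j => by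
    have h1 : charDegree ζ.1 ∣ 11 * (2 ^ a * 15) := ζ.2.charDegree_dvd_card.trans (by
      rw [h]; exact dvd_of_eq (by ring))
    have h2 := (c2 j).dvd_of_dvd_mul_left (((Nat.Prime.coprime_iff_not_dvd this.out).2
      (D.not_dvd_deg hx k)).symm.dvd_of_dvd_mul_left h1)
    have h3 := degree_ne_one hperf (D.ne_one k)
    have h4 := Nat.le_of_dvd (by norm_num) h2
    generalize charDegree ζ.1 = d at *
    interval_cases d <;> simp_all
  obtain ⟨θ, hθ⟩ := D.Y_nonempty
  have h1 : (2 : ℤ) ∣ ∑ χ ∈ D.X, D.δ χ * charDegree χ.1 := Finset.dvd_sum fun χ k => by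
    refine Dvd.dvd.mul_left ?_ _
    by_contra j
    have h1 := hodd χ (Or.inl k) (by omega)
    have h2 := D.deg_X hx k
    have h3 := D.δ_sign χ k
    unfold Int.ModEq at h2
    omega
  have h2 := D.deg_eqn hθ
  have hε := D.ε_sign
  have h3 := hodd θ (Or.inr hθ) (by rcases hε with k | k <;> rw [k] at h2 <;> omega)
  have h4 := D.deg_Y θ hθ
  have h5 := D.card_Y
  have h6 : e ∣ 10 := Dvd.intro_left _ (by omega : D.Y.card * e = 10)
  have h7 := Nat.le_of_dvd (by norm_num) h6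
  obtain ⟨h8, rfl⟩ : charDegree θ.1 = 5 ∧ e = 5 := by
    unfold Int.ModEq at h4
    clear * - h3 h4 h6 h7 hε
    rcases hε with k | k <;> rw [k] at h4 <;> clear k <;> generalize charDegree θ.1 = d at * <;>
      clear θ D <;> interval_cases e <;> omega
  have hf := θ.2.isCharacter.charKer_eq_bot_iff.1 (faithful (D.ne_one (Or.inr hθ)))
  have := isCyclic_of_prime_card hP
  obtain ⟨c, hc⟩ : 11 ∣ Nat.card (centralizer ((P : Subgroup G) : Set G)) :=
    hP.symm.dvd.trans (card_dvd_of_le (le_centralizer _))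
  obtain rfl : c = 1 := by
    by_contra j
    obtain ⟨y, y1, y2, y3⟩ := exists_reg_commute P hP hc j hx
    have := D.two_mul_lt hperf (Or.inr hθ) hx y2 y3 fun k => y1 (hf y k)
    omega
  have ha : a ≤ 8 := by
    obtain ⟨T⟩ : Nonempty (Sylow 2 G) := inferInstance
    have k1 := schur0 (θ.2.isCharacter.res T) (fun g k => Subtype.ext (hf g k))
      (fun g => int_Y D (by clear * - h5; omega) hθ fun k => by
        obtain ⟨j, hj⟩ := CL.Small.orderOf_mem_sylow T g.2
        rw [hj] at k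
        exact absurd ((by norm_num : Nat.Prime 11).dvd_of_dvd_pow k) (by norm_num)) Nat.prime_two (n := 5) h8
    rw [CL.Small.card_sylow_eq_of_factor T (a := a) (m := 165) (by rw [h]; ring) (by norm_num),
      Nat.prime_two.factorization_pow] at k1
    simpa [Finset.sum_range_succ] using k1
  have h9 := CL.Small.card_sylow_mul_card_normalizer P
  have h10 := CL.Small.card_sylow_mod (p := 11) (G := G)
  rw [← hN, hc, h] at h9
  rcases Cfsg.Agent.S0996.result hperf 11 x hx (eq_of_le_of_card_ge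
      (zpowers_le.2 (mem_centralizer_singleton_iff.2 rfl))
      (by rw [card_centralizer_eq P hP hx, hc, Nat.card_zpowers, hx])).symm
      (by interval_cases a <;> omega) with ⟨F, i, j, k, -, l⟩ | ⟨m, -, -, -, -, k, -⟩
  · exact ⟨F, i, j, k, l⟩
  · have : 5 ∣ 2 ^ m := by omega
    exact absurd (Nat.prime_five.dvd_of_dvd_pow this) (by norm_num)

end CL.K4
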